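import Mathlib.Analysis.Calculus.ImplicitContDiff
import Mathlib.Analysis.Calculus.ContDiff.Operations
import Mathlib.Analysis.Calculus.Deriv.Polynomial
import Mathlib.Analysis.Complex.Basic

/-!
# Simple roots of a polynomial are holomorphic functions of the coefficients
-/

set_option autoImplicit false
open Topology Filter Polynomial

noncomputable section

namespace Groth.Agent.Gaga.H990.ImplRoot

/-- The universal polynomial function `(c, t) ↦ ∑ cᵢ tⁱ`. -/
def E (N : ℕ) (q : (Fin N → ℂ) × ℂ) : ℂ := ∑ i : Fin N, q.1 i * q.2 ^ (i : ℕ)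

lemma contDiff_E (N : ℕ) : ContDiff ℂ 1 (E N) := by
  unfold E
  fun_prop

/-- Evaluation of a polynomial through a ring homomorphism in terms of `E`. -/
lemma eval₂_eq_E {R : Type*} [CommRing R] (N : ℕ) (f : R[X]) (hN : f.natDegree < N)
    (χ : R →+* ℂ) (t : ℂ) : f.eval₂ χ t = E N (fun i => χ (f.coeff i), t) := by
  rw [E, eval₂_eq_sum_range' χ hN, Finset.sum_range]

/-- **Implicit function theorem** for a simple root. -/
theorem exists_root_fun (N : ℕ) (c₀ : Fin N → ℂ) (t₀ d : ℂ) (h0 : E N (c₀, t₀) = 0)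
    (hd : HasDerivAt (fun t => E N (c₀, t)) d t₀) (hd0 : d ≠ 0) :
    ∃ τ : (Fin N → ℂ) → ℂ, (∀ᶠ c in 𝓝 c₀, DifferentiableAt ℂ τ c) ∧ τ c₀ = t₀ ∧
      ∀ᶠ v in 𝓝 (c₀, t₀), E N v = 0 ↔ τ v.1 = v.2 := by
  have cdf : ContDiffAt ℂ 1 (E N) (c₀, t₀) := (contDiff_E N).contDiffAt
  have hval : (fderiv ℂ (E N) (c₀, t₀)) ((0 : Fin N → ℂ), (1 : ℂ)) = d := by
    have h3 : HasDerivAt (fun t : ℂ => E N (c₀, t))
        ((fderiv ℂ (E N) (c₀, t₀)) ((0 : Fin N → ℂ), (1 : ℂ))) t₀ :=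
      (cdf.differentiableAt one_ne_zero).hasFDerivAt.comp_hasDerivAt t₀
        ((hasDerivAt_const t₀ c₀).prodMk (hasDerivAt_id t₀))
    exact h3.unique hd
  have hinv : ((fderiv ℂ (E N) (c₀, t₀)) ∘L .inr ℂ (Fin N → ℂ) ℂ).IsInvertible := by
    refine ⟨ContinuousLinearEquiv.unitsEquivAut ℂ (Units.mk0 _ hd0), ?_⟩
    ext
    simp [hval]
  refine ⟨cdf.implicitFunction one_ne_zero hinv, ?_, ?_, ?_⟩
  · have h1 := cdf.contDiffAt_implicitFunction one_ne_zero hinv
    filter_upwards [h1.eventually (by simp)] with c hc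
    exact hc.differentiableAt one_ne_zero
  · exact cdf.implicitFunction_apply_self one_ne_zero hinv
  · filter_upwards [cdf.eventually_apply_eq_iff_implicitFunction one_ne_zero hinv] with v hv
    rw [← hv, h0]

end Groth.Agent.Gaga.H990.ImplRoot
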