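import Groth.Agent.Gaga.H990.ChartAt
import Groth.Agent.Gaga.H990.ImplRoot
import Groth.Agent.An.H866.EtLH

/-!
# Étale morphisms have local holomorphic inverses

For `g : X ⟶ Y` étale over `ℂ` and a complex point `x` of `X`: every function which is `ChartAt` at
`x` (in particular every regular or holomorphic function near `x`) is near `x` of the form `ψ ∘ g`
with `ψ` a function which is `ChartAt` at `g x`.
-/

set_option autoImplicit false
open CategoryTheory AlgebraicGeometry Topology TopologicalSpace Opposite Filter Polynomial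
open Groth.Agent.An.H863.PtsBasic Groth.Agent.An.H863.PtsCont
open Groth.Agent.Gaga.H990.ChartAt Groth.Agent.Gaga.H990.ImplRoot

noncomputable section

namespace Groth.Agent.Gaga.H990.EtInv

/-- Standard étale charts. -/
theorem exists_std_chart {X Y : Scheme.{0}} (g : X ⟶ Y) [Etale g] (x : X) (W : X.Opens) (hx : x ∈ W) :
    ∃ (V : Y.Opens) (U : X.Opens) (_ : IsAffineOpen V) (_ : IsAffineOpen U) (_ : x ∈ U)
      (hle : U ≤ g ⁻¹ᵁ V) (_ : U ≤ W),
      Nonempty (@StandardEtalePresentation Γ(Y, V) Γ(X, U) _ _ (g.appLE V U hle).hom.toAlgebra) := by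
  obtain ⟨_, ⟨V, hV, rfl⟩, hyV, -⟩ :=
    Y.isBasis_affineOpens.exists_subset_of_mem_open (Set.mem_univ (g x)) isOpen_univ
  obtain ⟨_, ⟨U, hU, rfl⟩, hxU, hUV⟩ :=
    X.isBasis_affineOpens.exists_subset_of_mem_open (a := x) (u := ((g ⁻¹ᵁ V ⊓ W : X.Opens) : Set X))
      ⟨hyV, hx⟩ (g ⁻¹ᵁ V ⊓ W).isOpen
  have hUV' : U ≤ g ⁻¹ᵁ V := fun z hz => (hUV hz).1
  have hUW : U ≤ W := fun z hz => (hUV hz).2
  have het : (g.appLE V U hUV').hom.Etale := g.etale_appLE hV hU hUV'
  let _ : Algebra Γ(Y, V) Γ(X, U) := (g.appLE V U hUV').hom.toAlgebra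
  have : Algebra.Etale Γ(Y, V) Γ(X, U) := het
  let Q : Ideal Γ(X, U) := (hU.primeIdealOf ⟨x, hxU⟩).asIdeal
  have hQ : Q.IsPrime := (hU.primeIdealOf ⟨x, hxU⟩).isPrime
  obtain ⟨h, hhQ, hstd⟩ := Algebra.IsEtaleAt.exists_isStandardEtale (R := Γ(Y, V)) Q
  have hU' : IsAffineOpen (X.basicOpen h) := hU.basicOpen h
  have hxU' : x ∈ X.basicOpen h := by
    have h1 := hU.fromSpec_primeIdealOf ⟨x, hxU⟩
    have h2 := hU.fromSpec_preimage_basicOpen h
    have h3 : hU.fromSpec (hU.primeIdealOf ⟨x, hxU⟩) ∈ X.basicOpen h := by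
      change hU.primeIdealOf ⟨x, hxU⟩ ∈ hU.fromSpec ⁻¹ᵁ X.basicOpen h
      rw [h2]
      exact hhQ
    rw [h1] at h3
    exact h3
  have hle : X.basicOpen h ≤ U := X.basicOpen_le h
  have hle' : X.basicOpen h ≤ g ⁻¹ᵁ V := hle.trans hUV'
  let _ : Algebra Γ(Y, V) Γ(X, X.basicOpen h) := (g.appLE V (X.basicOpen h) hle').hom.toAlgebra
  have : IsLocalization.Away h Γ(X, X.basicOpen h) := hU.isLocalization_basicOpen h
  have : IsScalarTower Γ(Y, V) Γ(X, U) Γ(X, X.basicOpen h) := by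
    refine IsScalarTower.of_algebraMap_eq' ?_
    change (g.appLE V (X.basicOpen h) hle').hom =
      (X.presheaf.map (homOfLE hle).op).hom.comp (g.appLE V U hUV').hom
    rw [← CommRingCat.hom_comp, Scheme.Hom.appLE_map]
  let e : Localization.Away h ≃ₐ[Γ(X, U)] Γ(X, X.basicOpen h) :=
    IsLocalization.algEquiv (Submonoid.powers h) _ _
  have hstd' : Algebra.IsStandardEtale Γ(Y, V) Γ(X, X.basicOpen h) :=
    .of_equiv (e.restrictScalars Γ(Y, V))
  exact ⟨V, X.basicOpen h, hV, hU', hxU', hle', hle.trans hUW, hstd'.nonempty_standardEtalePresentation⟩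

variable {X Y : Scheme.{0}} [X.Over An.SC] [Y.Over An.SC]

/-- A regular function near `x` is `ψ ∘ g` near `x`, with `ψ` a chart function near `g x`. -/
theorem exists_chartAt_evAt (g : X ⟶ Y) [g.IsOver An.SC] [Etale g] (x : An.Pts X)
    (W : X.Opens) (hx : x.pt ∈ W) (s : Γ(X, W)) :
    ∃ ψ : An.Pts Y → ℂ, ChartAt ψ (An.Pts.map g x) ∧
      ∀ᶠ z in 𝓝 x, evAt z W s = ψ (An.Pts.map g z) := by
  classical
  obtain ⟨V, U, hV, hU, hxU, hle, hUW, ⟨P⟩⟩ := exists_std_chart g x.pt W hx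
  let _ : Algebra Γ(Y, V) Γ(X, U) := (g.appLE V U hle).hom.toAlgebra
  set s' : Γ(X, U) := X.presheaf.map (homOfLE hUW).op s with hs'
  have hmapV : ∀ z : An.Pts X, z.pt ∈ U → (An.Pts.map g z).pt ∈ V := fun z hz => by
    rw [An.Pts.pt_map]; exact hle hz
  have hcomp : ∀ (z : An.Pts X) (hz : z.pt ∈ U),
      (evHom z U hz).comp (algebraMap Γ(Y, V) Γ(X, U)) =
        evHom (An.Pts.map g z) V (hmapV z hz) := fun z hz => by
    refine RingHom.ext fun r => ?_
    have h1 := Groth.Agent.An.H863.PtsPullback.evAt_appLE g z V U hle hz r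
    rw [evAt_of_mem hz, evAt_of_mem (hmapV z hz)] at h1
    exact h1
  obtain ⟨p, n, hpn⟩ := Groth.Agent.An.H866.EtLH.value_eq P s'
  -- the bound on the degrees
  obtain ⟨N, hNf, hNp, hNg, hNf'⟩ : ∃ N : ℕ, P.f.natDegree < N ∧ p.natDegree < N ∧
      P.g.natDegree < N ∧ 0 < N :=
    ⟨P.f.natDegree + p.natDegree + P.g.natDegree + 1, by omega, by omega, by omega, by omega⟩
  -- the sections: coefficients of f, p, g
  let r : Fin 3 × Fin N → Γ(Y, V) := fun q =>
    if q.1 = 0 then P.f.coeff q.2 else if q.1 = 1 then p.coeff q.2 else P.g.coeff q.2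
  have hr0 : ∀ i, r (0, i) = P.f.coeff i := fun i => rfl
  have hr1 : ∀ i, r (1, i) = p.coeff i := fun i => rfl
  have hr2 : ∀ i, r (2, i) = P.g.coeff i := fun i => rfl
  set y := An.Pts.map g x with hy
  have hyV : y.pt ∈ V := hmapV x hxU
  set t₀ : ℂ := evAt x U P.x with ht₀
  let cof : An.Pts Y → Fin N → ℂ := fun w i => evAt w V (P.f.coeff i)
  have hev : ∀ (z : An.Pts X) (hz : z.pt ∈ U) (q : (Γ(Y, V))[X]), q.natDegree < N →
      evAt z U (aeval P.x q) = E N (fun i => evAt (An.Pts.map g z) V (q.coeff i), evAt z U P.x) := by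
    intro z hz q hq
    have h1 := eval₂_eq_E N q hq (evHom (An.Pts.map g z) V (hmapV z hz)) (evHom z U hz P.x)
    have h2 : (fun i : Fin N => evAt (An.Pts.map g z) V (q.coeff i)) =
        fun i : Fin N => evHom (An.Pts.map g z) V (hmapV z hz) (q.coeff i) := by
      funext i
      exact evAt_of_mem (hmapV z hz) _
    have h3 : evAt z U P.x = evHom z U hz P.x := evAt_of_mem hz _
    rw [h2, h3, ← h1, evAt_of_mem hz, ← hcomp z hz, aeval_def]
    change evHom z U hz _ = _
    rw [hom_eval₂]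
  have hf0 : ∀ (z : An.Pts X), z.pt ∈ U → E N (cof (An.Pts.map g z), evAt z U P.x) = 0 := by
    intro z hz
    rw [← hev z hz P.f hNf, P.hasMap.1, evAt_zero]
  have hg0 : ∀ (z : An.Pts X), z.pt ∈ U →
      E N (fun i => evAt (An.Pts.map g z) V (P.g.coeff i), evAt z U P.x) ≠ 0 := by
    intro z hz
    rw [← hev z hz P.g hNg, evAt_of_mem hz]
    exact ((P.hasMap.2).map (evHom z U hz)).ne_zero
  -- the derivative
  have hder : HasDerivAt (fun t => E N (cof y, t))
      (P.f.derivative.eval₂ (evHom y V hyV) t₀) t₀ := by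
    have h1 : (fun t => E N (cof y, t)) = fun t => (P.f.map (evHom y V hyV)).eval t := by
      funext t
      rw [eval_map, eval₂_eq_E N P.f hNf]
      congr 2
      funext i
      exact evAt_of_mem hyV _
    rw [h1]
    have h2 := (P.f.map (evHom y V hyV)).hasDerivAt t₀
    rw [derivative_map, eval_map] at h2
    exact h2
  have hder0 : P.f.derivative.eval₂ (evHom y V hyV) t₀ ≠ 0 := by
    have h1 : evHom x U hxU (aeval P.x P.f.derivative) =
        P.f.derivative.eval₂ (evHom y V hyV) t₀ := by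
      rw [← hcomp x hxU, aeval_def, hom_eval₂, ht₀, evAt_of_mem hxU]
      rfl
    rw [← h1]
    exact ((P.hasMap.isUnit_derivative_f).map (evHom x U hxU)).ne_zero
  obtain ⟨τ, hτd, hτ0, hτ⟩ := exists_root_fun N (cof y) t₀ _ (hf0 x hxU) hder hder0
  -- the chart function
  let G : (Fin 3 × Fin N → ℂ) → ℂ := fun c =>
    E N (fun i => c (1, i), τ (fun i => c (0, i))) / E N (fun i => c (2, i), τ (fun i => c (0, i))) ^ n
  let ψ : An.Pts Y → ℂ := fun w => G (fun q => evAt w V (r q))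
  have hc0 : (fun i => evAt y V (r (0, i))) = cof y := rfl
  have hproj : ∀ a : Fin 3, Differentiable ℂ
      (fun (c : Fin 3 × Fin N → ℂ) (i : Fin N) => c (a, i)) := by
    intro a
    rw [differentiable_pi]
    intro i
    exact (ContinuousLinearMap.proj (R := ℂ) (φ := fun _ : Fin 3 × Fin N => ℂ)
      (a, i)).differentiable
  have hEd : Differentiable ℂ (E N) := (contDiff_E N).differentiable one_ne_zero
  have hτd' : ∀ᶠ c in 𝓝 (fun q => evAt y V (r q)),
      DifferentiableAt ℂ (fun c : Fin 3 × Fin N → ℂ => τ (fun i => c (0, i))) c := by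
    have h1 : Tendsto (fun (c : Fin 3 × Fin N → ℂ) (i : Fin N) => c (0, i))
        (𝓝 (fun q => evAt y V (r q))) (𝓝 (cof y)) := (hproj 0).continuous.continuousAt
    filter_upwards [h1.eventually hτd] with c hc
    exact DifferentiableAt.comp (g := τ) c hc ((hproj 0) c)
  have hEτ : ∀ a : Fin 3, ∀ᶠ c in 𝓝 (fun q => evAt y V (r q)),
      DifferentiableAt ℂ (fun c : Fin 3 × Fin N → ℂ =>
        E N (fun i => c (a, i), τ (fun i => c (0, i)))) c := by
    intro a
    filter_upwards [hτd'] with c hc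
    exact DifferentiableAt.comp (g := E N) c (hEd _) (((hproj a) c).prodMk hc)
  have hψ : ChartAt ψ y := by
    refine ChartAt.mk V r G hyV ?_ (Eventually.of_forall fun w => rfl)
    have hne : ∀ᶠ c in 𝓝 (fun q => evAt y V (r q)),
        E N (fun i => c (2, i), τ (fun i => c (0, i))) ≠ 0 := by
      refine ContinuousAt.eventually_ne (hEτ 2).self_of_nhds.continuousAt ?_
      change E N (fun i => evAt y V (P.g.coeff i), τ (cof y)) ≠ 0
      rw [hτ0]
      exact hg0 x hxU
    filter_upwards [hEτ 1, hEτ 2, hne] with c h1 h2 h3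
    change DifferentiableAt ℂ (fun c : Fin 3 × Fin N → ℂ =>
      E N (fun i => c (1, i), τ (fun i => c (0, i))) /
        E N (fun i => c (2, i), τ (fun i => c (0, i))) ^ n) c
    simp only [div_eq_mul_inv]
    exact DifferentiableAt.fun_mul h1
      (DifferentiableAt.fun_inv (DifferentiableAt.fun_pow h2 n) (pow_ne_zero n h3))
  refine ⟨ψ, hψ, ?_⟩
  have hU' : ∀ᶠ z in 𝓝 x, z.pt ∈ U := (An.Pts.isOpen_preimage_pt U).mem_nhds hxU
  have hmc : ContinuousAt (An.Pts.map g) x := (An.Pts.continuous_map g).continuousAt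
  have hcc : ContinuousAt (fun z : An.Pts X => (cof (An.Pts.map g z), evAt z U P.x)) x := by
    refine ContinuousAt.prodMk ?_ (continuousAt_evAt U P.x hxU)
    exact ContinuousAt.comp (g := cof) (f := An.Pts.map g)
      (continuousAt_pi_evAt V (fun i : Fin N => P.f.coeff i) hyV) hmc
  filter_upwards [hU', hcc.eventually hτ] with z hz hz'
  have hτz : τ (cof (An.Pts.map g z)) = evAt z U P.x := hz'.1 (hf0 z hz)
  have hz1 : evAt z W s = evHom z U hz s' := by
    rw [hs', evAt_of_mem (hUW hz)]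
    exact (Groth.Agent.An.H863.PtsBasic.ev_res z hUW hz s).symm
  have hz2 := hpn (evHom z U hz)
  rw [hcomp z hz, eval₂_eq_E N P.g hNg, eval₂_eq_E N p hNp] at hz2
  have hz3 : ∀ q : (Γ(Y, V))[X], (fun i : Fin N => evHom (An.Pts.map g z) V (hmapV z hz) (q.coeff i)) =
      fun i : Fin N => evAt (An.Pts.map g z) V (q.coeff i) := by
    intro q
    funext i
    exact (evAt_of_mem (hmapV z hz) _).symm
  have hz4 : evHom z U hz P.x = evAt z U P.x := (evAt_of_mem hz _).symm
  rw [hz3, hz3, hz4] at hz2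
  have hψz : ψ (An.Pts.map g z) =
      E N (fun i => evAt (An.Pts.map g z) V (p.coeff i), τ (cof (An.Pts.map g z))) /
        E N (fun i => evAt (An.Pts.map g z) V (P.g.coeff i), τ (cof (An.Pts.map g z))) ^ n := rfl
  rw [hψz, hτz, hz1, eq_div_iff (pow_ne_zero n (hg0 z hz))]
  exact hz2

/-- **Local holomorphic inverse**: a function which is `ChartAt` at `x` is `ψ ∘ g` near `x`, with `ψ`
`ChartAt` at `g x`, for `g` étale. -/
theorem exists_chartAt (g : X ⟶ Y) [g.IsOver An.SC] [Etale g] {x : An.Pts X}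
    {φ : An.Pts X → ℂ} (hφ : ChartAt φ x) :
    ∃ ψ : An.Pts Y → ℂ, ChartAt ψ (An.Pts.map g x) ∧
      ∀ᶠ z in 𝓝 x, φ z = ψ (An.Pts.map g z) := by
  obtain ⟨W, n, s, G, hx, hG, he⟩ := hφ
  choose ψ hψ hψ' using fun i => exists_chartAt_evAt g x W hx (s i)
  have hval : (fun i => ψ i (An.Pts.map g x)) = fun i => evAt x W (s i) := by
    funext i
    exact (hψ' i).self_of_nhds.symm
  refine ⟨fun w => G (fun i => ψ i w), ChartAt.comp hψ G (by rw [hval]; exact hG), ?_⟩
  filter_upwards [he, eventually_all.2 hψ'] with z h1 h2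
  rw [h1]
  exact congrArg G (funext h2)

end Groth.Agent.Gaga.H990.EtInv
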