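import Groth.Prelude.Def_AnHol
import Groth.Agent.An.H863.PtsCont
import Mathlib.Analysis.Calculus.FDeriv.Pi
import Mathlib.Analysis.Calculus.FDeriv.Comp

/-!
# Functions on complex points which are chart functions near a point

`ChartAt φ x` (for a total function `φ : An.Pts X → ℂ`): near `x` the function `φ` is of the form
`z ↦ G (s₁ z, …, sₙ z)` with `sᵢ` regular near `x` and `G` complex differentiable near `s(x)`.

* `ChartAt.comp` : closed under composition with functions of several variables;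
* `holPred_iff` : a function on an open `U` is holomorphic (`An.holPred`) iff it is `ChartAt` at
  every point of `U`: locally a holomorphic function is a single chart function.
* `ChartAt.comp_map` : pull back along morphisms.
-/

set_option autoImplicit false
set_option linter.dupNamespace false
open CategoryTheory AlgebraicGeometry Topology TopologicalSpace Opposite Filter
open Groth.Agent.An.H863.PtsBasic Groth.Agent.An.H863.PtsCont

noncomputable section

namespace Groth.Agent.Gaga.H990.ChartAt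

variable {X Y : Scheme.{0}} [X.Over An.SC] [Y.Over An.SC]

/-- `φ` is, near `x`, a chart function. -/
def ChartAt (φ : An.Pts X → ℂ) (x : An.Pts X) : Prop :=
  ∃ (W : X.Opens) (n : ℕ) (s : Fin n → Γ(X, W)) (G : (Fin n → ℂ) → ℂ), x.pt ∈ W ∧
    (∀ᶠ c in 𝓝 (fun i => evAt x W (s i)), DifferentiableAt ℂ G c) ∧
    ∀ᶠ z in 𝓝 x, φ z = G (fun i => evAt z W (s i))

/-- The values of finitely many sections depend continuously on the point. -/
lemma continuousAt_pi_evAt {ι : Type*} (W : X.Opens) (s : ι → Γ(X, W)) {x : An.Pts X}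
    (hx : x.pt ∈ W) : ContinuousAt (fun z : An.Pts X => (fun i => evAt z W (s i))) x :=
  continuousAt_pi.2 fun i => continuousAt_evAt W (s i) hx

/-- `ChartAt` with an arbitrary finite index type. -/
lemma ChartAt.mk {ι : Type*} [Finite ι] {φ : An.Pts X → ℂ} {x : An.Pts X} (W : X.Opens)
    (s : ι → Γ(X, W)) (G : (ι → ℂ) → ℂ) (hx : x.pt ∈ W)
    (hG : ∀ᶠ c in 𝓝 (fun i => evAt x W (s i)), DifferentiableAt ℂ G c)
    (h : ∀ᶠ z in 𝓝 x, φ z = G (fun i => evAt z W (s i))) : ChartAt φ x := by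
  classical
  have := Fintype.ofFinite ι
  let e := Fintype.equivFin ι
  let L : (Fin (Fintype.card ι) → ℂ) → (ι → ℂ) := fun c i => c (e i)
  have hL : Differentiable ℂ L := by
    rw [differentiable_pi]
    intro i
    exact (ContinuousLinearMap.proj (R := ℂ) (φ := fun _ : Fin (Fintype.card ι) => ℂ)
      (e i)).differentiable
  have hL1 : ∀ z : An.Pts X, L (fun i => evAt z W (s (e.symm i))) = fun i => evAt z W (s i) := by
    intro z
    funext i
    simp [L]
  refine ⟨W, Fintype.card ι, fun i => s (e.symm i), G ∘ L, hx, ?_, ?_⟩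
  · have h1 : Tendsto L (𝓝 (fun i => evAt x W (s (e.symm i)))) (𝓝 (fun i => evAt x W (s i))) := by
      rw [← hL1 x]
      exact hL.continuous.continuousAt
    filter_upwards [h1.eventually hG] with c hc
    exact DifferentiableAt.comp c hc (hL c)
  · filter_upwards [h] with z hz
    rw [hz]
    exact (congrArg G (hL1 z)).symm

lemma ChartAt.congr {φ ψ : An.Pts X → ℂ} {x : An.Pts X} (h : ChartAt φ x)
    (h' : ψ =ᶠ[𝓝 x] φ) : ChartAt ψ x := by
  obtain ⟨W, n, s, G, hx, hG, he⟩ := h
  refine ⟨W, n, s, G, hx, hG, ?_⟩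
  filter_upwards [he, h'] with z h1 h2
  rw [h2, h1]

/-- A regular function is `ChartAt`. -/
lemma chartAt_evAt (W : X.Opens) (s : Γ(X, W)) {x : An.Pts X} (hx : x.pt ∈ W) :
    ChartAt (fun z => evAt z W s) x :=
  ChartAt.mk (ι := Unit) W (fun _ => s) (fun c => c ()) hx
    (Eventually.of_forall fun _ => (ContinuousLinearMap.proj (R := ℂ) (φ := fun _ : Unit => ℂ)
      ()).differentiableAt) (Eventually.of_forall fun _ => rfl)

lemma ChartAt.continuousAt {φ : An.Pts X → ℂ} {x : An.Pts X} (h : ChartAt φ x) :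
    ContinuousAt φ x := by
  obtain ⟨W, n, s, G, hx, hG, he⟩ := h
  have h1 : ContinuousAt (fun z : An.Pts X => G (fun i => evAt z W (s i))) x :=
    ContinuousAt.comp (g := G) (f := fun z : An.Pts X => (fun i => evAt z W (s i)))
      hG.self_of_nhds.continuousAt (continuousAt_pi_evAt W s hx)
  exact h1.congr (he.mono fun z hz => hz.symm)

/-- Being `ChartAt` is an open condition. -/
lemma ChartAt.eventually {φ : An.Pts X → ℂ} {x : An.Pts X} (h : ChartAt φ x) :
    ∀ᶠ y in 𝓝 x, ChartAt φ y := by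
  obtain ⟨W, n, s, G, hx, hG, he⟩ := h
  have h1 := (continuousAt_pi_evAt W s hx).eventually (eventually_eventually_nhds.2 hG)
  have h2 : ∀ᶠ y in 𝓝 x, y.pt ∈ W := (An.Pts.isOpen_preimage_pt W).mem_nhds hx
  filter_upwards [h1, h2, eventually_eventually_nhds.2 he] with y hy1 hy2 hy3
  exact ⟨W, n, s, G, hy2, hy1, hy3⟩

/-- restriction of sections does not change values -/
lemma evAt_res {z : An.Pts X} {U V : X.Opens} (i : V ≤ U) (h : z.pt ∈ V) (f : Γ(X, U)) :
    evAt z V (X.presheaf.map (homOfLE i).op f) = evAt z U f := by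
  rw [evAt_of_mem h, evAt_of_mem (i h)]
  exact Groth.Agent.An.H863.PtsBasic.ev_res z i h f

/-- **Composition**: if `φ_j` (`j` in a finite type) are `ChartAt` at `x` and `G` is differentiable
near `(φ_j x)_j`, then `G ∘ (φ_j)_j` is `ChartAt` at `x`. -/
lemma ChartAt.comp {ι : Type*} [Finite ι] {φ : ι → An.Pts X → ℂ} {x : An.Pts X}
    (h : ∀ j, ChartAt (φ j) x) (G : (ι → ℂ) → ℂ)
    (hG : ∀ᶠ c in 𝓝 (fun j => φ j x), DifferentiableAt ℂ G c) :
    ChartAt (fun z => G (fun j => φ j z)) x := by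
  classical
  have := Fintype.ofFinite ι
  choose W n s H hx hH he using h
  let W' : X.Opens := Finset.univ.inf W
  have hle : ∀ j, W' ≤ W j := fun j => Finset.inf_le (Finset.mem_univ j)
  have hx' : x.pt ∈ W' := by
    have : W' = ⨅ j, W j := by simp [W', Finset.inf_univ_eq_iInf]
    have h2 : (x.pt ∈ ((⨅ j, W j : X.Opens) : Set X)) := by
      rw [TopologicalSpace.Opens.coe_iInf]
      exact Set.mem_iInter.2 hx
    rw [this]
    exact h2
  let s' : (Σ j, Fin (n j)) → Γ(X, W') := fun p => X.presheaf.map (homOfLE (hle p.1)).op (s p.1 p.2)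
  let L : ((Σ j, Fin (n j)) → ℂ) → (ι → ℂ) := fun c j => H j (fun i => c ⟨j, i⟩)
  have hs' : ∀ z : An.Pts X, z.pt ∈ W' → ∀ j,
      (fun i => evAt z W' (s' ⟨j, i⟩)) = fun i => evAt z (W j) (s j i) := by
    intro z hz j
    funext i
    exact evAt_res (hle j) hz _
  have hW' : ∀ᶠ z in 𝓝 x, z.pt ∈ W' := (An.Pts.isOpen_preimage_pt W').mem_nhds hx'
  have hφx : ∀ j, φ j x = H j (fun i => evAt x W' (s' ⟨j, i⟩)) := by
    intro j
    rw [hs' x hx' j]
    exact (he j).self_of_nhds
  -- differentiability of L near the point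
  have hproj : ∀ j, Differentiable ℂ (fun (c : (Σ j, Fin (n j)) → ℂ) (i : Fin (n j)) => c ⟨j, i⟩) := by
    intro j
    rw [differentiable_pi]
    intro i
    exact (ContinuousLinearMap.proj (R := ℂ) (φ := fun _ : (Σ j, Fin (n j)) => ℂ)
      ⟨j, i⟩).differentiable
  have hLd : ∀ᶠ c in 𝓝 (fun p => evAt x W' (s' p)), DifferentiableAt ℂ L c := by
    have h1 : ∀ j, ∀ᶠ c in 𝓝 (fun p => evAt x W' (s' p)),
        DifferentiableAt ℂ (H j) (fun i => c ⟨j, i⟩) := by
      intro j
      have h2 : Tendsto (fun (c : (Σ j, Fin (n j)) → ℂ) (i : Fin (n j)) => c ⟨j, i⟩)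
          (𝓝 (fun p => evAt x W' (s' p))) (𝓝 (fun i => evAt x (W j) (s j i))) := by
        rw [← hs' x hx' j]
        exact (hproj j).continuous.continuousAt
      exact h2.eventually (hH j)
    filter_upwards [eventually_all.2 h1] with c hc
    rw [differentiableAt_pi]
    intro j
    exact DifferentiableAt.comp (g := H j) (f := fun (c : (Σ j, Fin (n j)) → ℂ) (i : Fin (n j)) =>
      c ⟨j, i⟩) c (hc j) (hproj j c)
  have hLx : L (fun p => evAt x W' (s' p)) = fun j => φ j x := by
    funext j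
    exact (hφx j).symm
  refine ChartAt.mk W' s' (G ∘ L) hx' ?_ ?_
  · have h3 : Tendsto L (𝓝 (fun p => evAt x W' (s' p))) (𝓝 (fun j => φ j x)) := by
      rw [← hLx]
      exact hLd.self_of_nhds.continuousAt
    filter_upwards [hLd, h3.eventually hG] with c h4 h5
    exact DifferentiableAt.comp c h5 h4
  · filter_upwards [hW', eventually_all.2 he] with z hz hz'
    change G _ = G _
    congr 1
    funext j
    change φ j z = H j (fun i => evAt z W' (s' ⟨j, i⟩))
    rw [hs' z hz j]
    exact hz' j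

lemma chartAt_const (c : ℂ) (x : An.Pts X) : ChartAt (fun _ => c) x :=
  ChartAt.mk (ι := Empty) ⊤ (fun e => e.elim) (fun _ => c) trivial
    (Eventually.of_forall fun _ => differentiableAt_const c) (Eventually.of_forall fun _ => rfl)

lemma ChartAt.add {φ ψ : An.Pts X → ℂ} {x : An.Pts X} (h : ChartAt φ x) (h' : ChartAt ψ x) :
    ChartAt (fun z => φ z + ψ z) x := by
  have := ChartAt.comp (ι := Bool) (φ := fun b => bif b then φ else ψ) (x := x)
    (fun b => by cases b; exacts [h', h]) (fun c => c true + c false)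
    (Eventually.of_forall fun c => by fun_prop)
  exact this

lemma ChartAt.mul {φ ψ : An.Pts X → ℂ} {x : An.Pts X} (h : ChartAt φ x) (h' : ChartAt ψ x) :
    ChartAt (fun z => φ z * ψ z) x := by
  have := ChartAt.comp (ι := Bool) (φ := fun b => bif b then φ else ψ) (x := x)
    (fun b => by cases b; exacts [h', h]) (fun c => c true * c false)
    (Eventually.of_forall fun c => by fun_prop)
  exact this

lemma ChartAt.inv {φ : An.Pts X → ℂ} {x : An.Pts X} (h : ChartAt φ x) (h0 : φ x ≠ 0) :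
    ChartAt (fun z => (φ z)⁻¹) x := by
  refine ChartAt.comp (ι := Unit) (φ := fun _ => φ) (x := x) (fun _ => h) (fun c => (c ())⁻¹) ?_
  have h1 : ContinuousAt (fun c : Unit → ℂ => c ()) (fun _ => φ x) :=
    (continuous_apply ()).continuousAt
  filter_upwards [h1.eventually_ne h0] with c hc
  exact DifferentiableAt.inv (ContinuousLinearMap.proj (R := ℂ) (φ := fun _ : Unit => ℂ)
      ()).differentiableAt hc

/-- Pull-back along a morphism over `ℂ`. -/
lemma ChartAt.comp_map (f : X ⟶ Y) [f.IsOver An.SC] {φ : An.Pts Y → ℂ} {x : An.Pts X}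
    (h : ChartAt φ (An.Pts.map f x)) : ChartAt (fun z => φ (An.Pts.map f z)) x := by
  obtain ⟨W, n, s, G, hx, hG, he⟩ := h
  have key : ∀ z : An.Pts X, (An.Pts.map f z).pt ∈ W → ∀ t : Γ(Y, W),
      evAt z (f ⁻¹ᵁ W) (f.app W t) = evAt (An.Pts.map f z) W t := by
    intro z hz t
    have hz' : z.pt ∈ f ⁻¹ᵁ W := by rw [An.Pts.pt_map] at hz; exact hz
    rw [evAt_of_mem hz, evAt_of_mem hz', An.Pts.ev_map]
  have hx' : x.pt ∈ f ⁻¹ᵁ W := by rw [An.Pts.pt_map] at hx; exact hx
  refine ⟨f ⁻¹ᵁ W, n, fun i => f.app W (s i), G, hx', ?_, ?_⟩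
  · have : (fun i => evAt x (f ⁻¹ᵁ W) (f.app W (s i))) = fun i => evAt (An.Pts.map f x) W (s i) :=
      funext fun i => key x hx _
    rw [this]
    exact hG
  · have hc : ContinuousAt (An.Pts.map f) x := (An.Pts.continuous_map f).continuousAt
    filter_upwards [hc.eventually he, hc.eventually ((An.Pts.isOpen_preimage_pt W).mem_nhds hx)]
      with z h1 h2
    rw [h1]
    exact congrArg G (funext fun i => (key z h2 _).symm)

open Classical in
/-- Extension by zero of a function on an open subset. -/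
def ext0 (U : Opens (An.top X)) (g : U → ℂ) (z : An.Pts X) : ℂ :=
  if h : z ∈ U then g ⟨z, h⟩ else 0

lemma ext0_of_mem {U : Opens (An.top X)} (g : U → ℂ) {z : An.Pts X} (h : z ∈ U) :
    ext0 U g z = g ⟨z, h⟩ := dif_pos h

/-- Restricting does not change the function near a point. -/
lemma ext0_eventuallyEq {U V : Opens (An.top X)} (i : V ≤ U) (g : U → ℂ) {z : An.Pts X}
    (h : z ∈ V) : ext0 V (fun y => g ⟨y.1, i y.2⟩) =ᶠ[𝓝 z] ext0 U g := by
  filter_upwards [V.isOpen.mem_nhds h] with y hy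
  rw [ext0_of_mem _ hy, ext0_of_mem _ (i hy)]

/-- A chart function on an open set is `ChartAt` at its points. -/
lemma chartAt_of_isChartFun {U : Opens (An.top X)} {g : U → ℂ} (hg : An.IsChartFun U g)
    {x : An.Pts X} (hx : x ∈ U) : ChartAt (ext0 U g) x := by
  obtain ⟨W, hW, n, s, V, G, hV, hG, h⟩ := hg
  have hxW : x.pt ∈ W := hW ⟨x, hx⟩
  have hev : ∀ z (hz : z ∈ U), (fun i => evAt z W (s i)) =
      fun i => An.Pts.ev z W (hW ⟨z, hz⟩) (s i) := by
    intro z hz
    funext i
    exact evAt_of_mem (hW ⟨z, hz⟩) _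
  refine ⟨W, n, s, G, hxW, ?_, ?_⟩
  · rw [hev x hx]
    filter_upwards [hV.mem_nhds (h ⟨x, hx⟩).1] with c hc
    exact hG.differentiableAt (hV.mem_nhds hc)
  · filter_upwards [U.isOpen.mem_nhds hx] with z hz
    rw [ext0_of_mem _ hz, hev z hz]
    exact (h ⟨z, hz⟩).2

lemma chartAt_of_mem_chartAlg {U : Opens (An.top X)} {g : U → ℂ} (hg : g ∈ An.chartAlg U)
    {x : An.Pts X} (hx : x ∈ U) : ChartAt (ext0 U g) x := by
  induction hg using Algebra.adjoin_induction with
  | mem g hg => exact chartAt_of_isChartFun hg hx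
  | algebraMap c =>
    refine (chartAt_const c x).congr ?_
    filter_upwards [U.isOpen.mem_nhds hx] with z hz
    rw [ext0_of_mem _ hz]
    rfl
  | add f g _ _ hf hg =>
    refine (hf.add hg).congr ?_
    filter_upwards [U.isOpen.mem_nhds hx] with z hz
    rw [ext0_of_mem _ hz, ext0_of_mem _ hz, ext0_of_mem _ hz]
    rfl
  | mul f g _ _ hf hg =>
    refine (hf.mul hg).congr ?_
    filter_upwards [U.isOpen.mem_nhds hx] with z hz
    rw [ext0_of_mem _ hz, ext0_of_mem _ hz, ext0_of_mem _ hz]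
    rfl

/-- A function which is `ChartAt` at `x` is a chart function on a neighbourhood of `x`. -/
lemma ChartAt.exists_isChartFun {φ : An.Pts X → ℂ} {x : An.Pts X} (h : ChartAt φ x) :
    ∃ (U : Opens (An.top X)), x ∈ U ∧ ∀ V : Opens (An.top X), V ≤ U →
      An.IsChartFun V (fun z => φ z.1) := by
  obtain ⟨W, n, s, G, hx, hG, he⟩ := h
  obtain ⟨D, hD1, hD2, hD3⟩ := eventually_nhds_iff.1 hG
  have h1 := (continuousAt_pi_evAt W s hx).eventually (hD2.mem_nhds hD3)
  have h2 : ∀ᶠ y in 𝓝 x, y.pt ∈ W := (An.Pts.isOpen_preimage_pt W).mem_nhds hx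
  obtain ⟨U, hU1, hU2, hU3⟩ := eventually_nhds_iff.1 ((h1.and h2).and he)
  refine ⟨⟨U, hU2⟩, hU3, fun V hV => ?_⟩
  refine ⟨W, fun z => (hU1 z.1 (hV z.2)).1.2, n, s, D, G, hD2,
    fun c hc => (hD1 c hc).differentiableWithinAt, fun z => ?_⟩
  have h3 : (fun i => An.Pts.ev z.1 W (hU1 z.1 (hV z.2)).1.2 (s i)) =
      fun i => evAt z.1 W (s i) := by
    funext i
    exact (evAt_of_mem (hU1 z.1 (hV z.2)).1.2 _).symm
  rw [h3]
  exact ⟨(hU1 z.1 (hV z.2)).1.1, (hU1 z.1 (hV z.2)).2⟩

/-- **A function is holomorphic iff it is `ChartAt` at every point.** -/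
theorem holPred_iff {U : Opens (An.top X)} (g : U → ℂ) :
    (An.holPred X).pred g ↔ ∀ x ∈ U, ChartAt (ext0 U g) x := by
  constructor
  · intro hg x hx
    obtain ⟨V, hV, i, h⟩ := hg ⟨x, hx⟩
    have h1 : ChartAt (ext0 V (fun z => g (i z))) x := chartAt_of_mem_chartAlg h hV
    exact h1.congr (ext0_eventuallyEq i.le g hV).symm
  · intro h x
    obtain ⟨V, hV, h1⟩ := (h x.1 x.2).exists_isChartFun
    refine ⟨V ⊓ U, ⟨hV, x.2⟩, Opens.infLERight V U, ?_⟩
    refine Algebra.subset_adjoin ?_
    have h2 := h1 (V ⊓ U) inf_le_left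
    have h3 : (fun z : (V ⊓ U : Opens (An.top X)) => ext0 U g z.1) =
        fun z => g ((Opens.infLERight V U) z) := by
      funext z
      exact ext0_of_mem _ z.2.2
    rw [h3] at h2
    exact h2

/-- Total form: a total function which is `ChartAt` on an open set restricts to a holomorphic
function. -/
theorem holPred_of_chartAt {U : Opens (An.top X)} (φ : An.Pts X → ℂ)
    (h : ∀ x ∈ U, ChartAt φ x) : (An.holPred X).pred (U := U) (fun z => φ z.1) := by
  rw [holPred_iff]
  intro x hx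
  refine (h x hx).congr ?_
  filter_upwards [U.isOpen.mem_nhds hx] with z hz
  rw [ext0_of_mem _ hz]

end Groth.Agent.Gaga.H990.ChartAt
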