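import Groth.Agent.Gaga.H990.ChartAt
import Mathlib.Geometry.RingedSpace.Stalks
import Mathlib.Topology.Sheaves.CommRingCat
import Mathlib.Order.Filter.Ring

/-!
# The stalks of `An.anSpace X` as rings of germs of functions

* `toGerm x : (An.anSpace X).presheaf.stalk x →+* (𝓝 x).Germ ℂ` is injective, with range the germs
  of the functions which are `ChartAt` at `x`;
* compatibility with `An.anMap` and `An.anToScheme`.
-/

set_option autoImplicit false
set_option linter.dupNamespace false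
open CategoryTheory AlgebraicGeometry Topology TopologicalSpace Opposite Filter
open Groth.Agent.An.H863.PtsBasic Groth.Agent.An.H863.PtsCont
open Groth.Agent.Gaga.H990.ChartAt

noncomputable section

namespace Groth.Agent.Gaga.H990.Stalk

variable {X Y : Scheme.{0}} [X.Over An.SC] [Y.Over An.SC]

/-- The germ at `x` of a section of `An.holPresheaf`, as a section of the presheaf. -/
abbrev sec (U : Opens (An.top X)) : Type := An.holSub U

/-- The stalk of the sheaf of holomorphic functions. -/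
abbrev stk (x : An.Pts X) : Type := (An.anSpace X).presheaf.stalk x

/-- Germ of a holomorphic function defined on `U ∋ x`. -/
def germ (U : Opens (An.top X)) (x : An.Pts X) (hx : x ∈ U) (g : sec U) : stk x :=
  (An.holPresheaf X).germ U x hx g

lemma exists_germ (x : An.Pts X) (b : stk x) :
    ∃ (U : Opens (An.top X)) (hx : x ∈ U) (g : sec U), germ U x hx g = b :=
  TopCat.Presheaf.exists_germ_eq (An.holPresheaf X) b

lemma germ_eq_iff {x : An.Pts X} {U V : Opens (An.top X)} (hU : x ∈ U) (hV : x ∈ V)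
    (g : sec U) (h : sec V) :
    germ U x hU g = germ V x hV h ↔ ext0 U g.1 =ᶠ[𝓝 x] ext0 V h.1 := by
  constructor
  · intro e
    obtain ⟨W, hW, iU, iV, e'⟩ := (An.holPresheaf X).germ_eq x hU hV g h e
    filter_upwards [W.isOpen.mem_nhds hW] with z hz
    rw [ext0_of_mem _ (iU.le hz), ext0_of_mem _ (iV.le hz)]
    have := congrArg (fun s : sec W => s.1 ⟨z, hz⟩) e'
    exact this
  · intro e
    have eU : ∀ᶠ z in 𝓝 x, z ∈ U := U.isOpen.mem_nhds hU
    have eV : ∀ᶠ z in 𝓝 x, z ∈ V := V.isOpen.mem_nhds hV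
    obtain ⟨W, h1, h2, h3⟩ := eventually_nhds_iff.1 (e.and (eU.and eV))
    let W' : Opens (An.top X) := ⟨W, h2⟩
    let iU : W' ⟶ U := homOfLE fun z hz => (h1 z hz).2.1
    let iV : W' ⟶ V := homOfLE fun z hz => (h1 z hz).2.2
    refine TopCat.Presheaf.germ_ext (An.holPresheaf X) W' h3 iU iV ?_
    apply Subtype.ext
    funext z
    have h4 := (h1 z.1 z.2).1
    rw [ext0_of_mem _ (iU.le z.2), ext0_of_mem _ (iV.le z.2)] at h4
    exact h4

/-- The germ of functions attached to an element of the stalk. -/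
def toGermFun (x : An.Pts X) (b : stk x) : (𝓝 x).Germ ℂ :=
  ((ext0 (exists_germ x b).choose (exists_germ x b).choose_spec.choose_spec.choose.1 :
    An.Pts X → ℂ) : (𝓝 x).Germ ℂ)

lemma toGermFun_germ {x : An.Pts X} {U : Opens (An.top X)} (hU : x ∈ U) (g : sec U) :
    toGermFun x (germ U x hU g) = ((ext0 U g.1 : An.Pts X → ℂ) : (𝓝 x).Germ ℂ) := by
  refine Germ.coe_eq.2 ?_
  refine (germ_eq_iff (exists_germ x (germ U x hU g)).choose_spec.choose hU _ g).1 ?_
  exact (exists_germ x (germ U x hU g)).choose_spec.choose_spec.choose_spec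

lemma ext0_res {U V : Opens (An.top X)} (i : V ≤ U) (g : sec U) {x : An.Pts X} (hx : x ∈ V) :
    ext0 V ((An.holPresheaf X).map (homOfLE i).op g).1 =ᶠ[𝓝 x] ext0 U g.1 :=
  ext0_eventuallyEq i g.1 hx

/-- **The stalk embeds in the ring of germs of functions.** -/
def toGerm (x : An.Pts X) : stk x →+* (𝓝 x).Germ ℂ where
  toFun := toGermFun x
  map_one' := by
    have h1 : (1 : stk x) = germ ⊤ x trivial 1 := (map_one _).symm
    rw [h1, toGermFun_germ]
    refine Germ.coe_eq.2 (Eventually.of_forall fun z => ?_)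
    rw [ext0_of_mem _ (show z ∈ (⊤ : Opens (An.top X)) from trivial)]
    rfl
  map_zero' := by
    have h1 : (0 : stk x) = germ ⊤ x trivial 0 := (map_zero _).symm
    rw [h1, toGermFun_germ]
    refine Germ.coe_eq.2 (Eventually.of_forall fun z => ?_)
    rw [ext0_of_mem _ (show z ∈ (⊤ : Opens (An.top X)) from trivial)]
    rfl
  map_mul' a b := by
    obtain ⟨U, hU, g, rfl⟩ := exists_germ x a
    obtain ⟨V, hV, h, rfl⟩ := exists_germ x b
    have e1 : germ U x hU g = germ (U ⊓ V) x ⟨hU, hV⟩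
        ((An.holPresheaf X).map (homOfLE inf_le_left).op g) :=
      (germ_eq_iff _ _ _ _).2 (ext0_res inf_le_left g ⟨hU, hV⟩).symm
    have e2 : germ V x hV h = germ (U ⊓ V) x ⟨hU, hV⟩
        ((An.holPresheaf X).map (homOfLE inf_le_right).op h) :=
      (germ_eq_iff _ _ _ _).2 (ext0_res inf_le_right h ⟨hU, hV⟩).symm
    rw [e1, e2]
    have e3 : ∀ a b : sec (U ⊓ V), germ (U ⊓ V) x ⟨hU, hV⟩ a * germ (U ⊓ V) x ⟨hU, hV⟩ b =
        germ (U ⊓ V) x ⟨hU, hV⟩ (a * b) := fun a b =>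
      (map_mul ((An.holPresheaf X).germ (U ⊓ V) x ⟨hU, hV⟩).hom a b).symm
    rw [e3, toGermFun_germ, toGermFun_germ, toGermFun_germ]
    refine Germ.coe_eq.2 ?_
    filter_upwards [(U ⊓ V).isOpen.mem_nhds ⟨hU, hV⟩] with z hz
    change ext0 _ _ z = ext0 _ _ z * ext0 _ _ z
    rw [ext0_of_mem _ hz, ext0_of_mem _ hz, ext0_of_mem _ hz]
    rfl
  map_add' a b := by
    obtain ⟨U, hU, g, rfl⟩ := exists_germ x a
    obtain ⟨V, hV, h, rfl⟩ := exists_germ x b
    have e1 : germ U x hU g = germ (U ⊓ V) x ⟨hU, hV⟩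
        ((An.holPresheaf X).map (homOfLE inf_le_left).op g) :=
      (germ_eq_iff _ _ _ _).2 (ext0_res inf_le_left g ⟨hU, hV⟩).symm
    have e2 : germ V x hV h = germ (U ⊓ V) x ⟨hU, hV⟩
        ((An.holPresheaf X).map (homOfLE inf_le_right).op h) :=
      (germ_eq_iff _ _ _ _).2 (ext0_res inf_le_right h ⟨hU, hV⟩).symm
    rw [e1, e2]
    have e3 : ∀ a b : sec (U ⊓ V), germ (U ⊓ V) x ⟨hU, hV⟩ a + germ (U ⊓ V) x ⟨hU, hV⟩ b =
        germ (U ⊓ V) x ⟨hU, hV⟩ (a + b) := fun a b =>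
      (map_add ((An.holPresheaf X).germ (U ⊓ V) x ⟨hU, hV⟩).hom a b).symm
    rw [e3, toGermFun_germ, toGermFun_germ, toGermFun_germ]
    refine Germ.coe_eq.2 ?_
    filter_upwards [(U ⊓ V).isOpen.mem_nhds ⟨hU, hV⟩] with z hz
    change ext0 _ _ z = ext0 _ _ z + ext0 _ _ z
    rw [ext0_of_mem _ hz, ext0_of_mem _ hz, ext0_of_mem _ hz]
    rfl

lemma toGerm_germ {x : An.Pts X} {U : Opens (An.top X)} (hU : x ∈ U) (g : sec U) :
    toGerm x (germ U x hU g) = ((ext0 U g.1 : An.Pts X → ℂ) : (𝓝 x).Germ ℂ) :=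
  toGermFun_germ hU g

lemma toGerm_injective (x : An.Pts X) : Function.Injective (toGerm x) := by
  intro a b h
  obtain ⟨U, hU, g, rfl⟩ := exists_germ x a
  obtain ⟨V, hV, h', rfl⟩ := exists_germ x b
  rw [toGerm_germ, toGerm_germ] at h
  exact (germ_eq_iff _ _ _ _).2 (Germ.coe_eq.1 h)

/-- The holomorphic function near `x` given by a total function which is `ChartAt x`. -/
lemma exists_stk_of_chartAt {x : An.Pts X} {φ : An.Pts X → ℂ} (h : ChartAt φ x) :
    ∃ b : stk x, toGerm x b = (φ : (𝓝 x).Germ ℂ) := by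
  obtain ⟨U, hU1, hU2, hU3⟩ := eventually_nhds_iff.1 h.eventually
  let U' : Opens (An.top X) := ⟨U, hU2⟩
  refine ⟨germ U' x hU3 ⟨fun z => φ z.1, holPred_of_chartAt φ fun z hz => hU1 z hz⟩, ?_⟩
  rw [toGerm_germ]
  refine Germ.coe_eq.2 ?_
  filter_upwards [hU2.mem_nhds hU3] with z hz
  rw [ext0_of_mem (U := U') _ hz]

lemma exists_chartAt_of_stk {x : An.Pts X} (b : stk x) :
    ∃ φ : An.Pts X → ℂ, ChartAt φ x ∧ toGerm x b = (φ : (𝓝 x).Germ ℂ) := by
  obtain ⟨U, hU, g, rfl⟩ := exists_germ x b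
  exact ⟨ext0 U g.1, (holPred_iff g.1).1 g.2 x hU, toGerm_germ hU g⟩

/-- The stalk is the ring of germs of functions which are `ChartAt x`. -/
theorem mem_range_toGerm_iff {x : An.Pts X} (φ : An.Pts X → ℂ) :
    (φ : (𝓝 x).Germ ℂ) ∈ (toGerm x).range ↔ ChartAt φ x := by
  constructor
  · rintro ⟨b, hb⟩
    obtain ⟨ψ, hψ, h⟩ := exists_chartAt_of_stk b
    rw [h] at hb
    exact hψ.congr (Germ.coe_eq.1 hb).symm
  · intro h
    obtain ⟨b, hb⟩ := exists_stk_of_chartAt h
    exact ⟨b, hb⟩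

/-- Compatibility of `toGerm` with `f^an`. -/
lemma toGerm_stalkMap (f : X ⟶ Y) [f.IsOver An.SC] (x : An.Pts X) (a : stk (An.Pts.map f x))
    (ψ : An.Pts Y → ℂ) (h : toGerm (An.Pts.map f x) a = (ψ : (𝓝 (An.Pts.map f x)).Germ ℂ)) :
    toGerm x ((PresheafedSpace.Hom.stalkMap (An.anMap f) x).hom a) =
      ((fun z => ψ (An.Pts.map f z) : An.Pts X → ℂ) : (𝓝 x).Germ ℂ) := by
  obtain ⟨V, hV, g, rfl⟩ := exists_germ _ a
  rw [toGerm_germ] at h
  have e1 : (PresheafedSpace.Hom.stalkMap (An.anMap f) x).hom (germ V (An.Pts.map f x) hV g) =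
      germ ((Opens.map (An.topMap f)).obj V) x hV ((An.anMapApp f V).hom g) :=
    PresheafedSpace.stalkMap_germ_apply (An.anMap f) V x hV g
  rw [e1, toGerm_germ]
  refine Germ.coe_eq.2 ?_
  have hc : ContinuousAt (An.Pts.map f) x := (An.Pts.continuous_map f).continuousAt
  filter_upwards [hc.eventually (Germ.coe_eq.1 h), hc.eventually (V.isOpen.mem_nhds hV)] with z h1 h2
  rw [← h1, ext0_of_mem _ h2, ext0_of_mem (U := (Opens.map (An.topMap f)).obj V) _ h2]
  rfl

/-- Compatibility of `toGerm` with `X^an → X`. -/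
lemma toGerm_anToScheme (x : An.Pts X) (W : X.Opens) (hx : x.pt ∈ W) (s : Γ(X, W)) :
    toGerm x ((PresheafedSpace.Hom.stalkMap (An.anToScheme X) x).hom (X.presheaf.germ W x.pt hx s)) =
      ((fun z => evAt z W s : An.Pts X → ℂ) : (𝓝 x).Germ ℂ) := by
  have e1 : (PresheafedSpace.Hom.stalkMap (An.anToScheme X) x).hom (X.presheaf.germ W x.pt hx s) =
      germ ((Opens.map (An.anToScheme X).base).obj W) x hx ((An.toHolApp W).hom s) :=
    PresheafedSpace.stalkMap_germ_apply (An.anToScheme X) W x hx s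
  rw [e1, toGerm_germ]
  refine Germ.coe_eq.2 ?_
  filter_upwards [(An.Pts.isOpen_preimage_pt W).mem_nhds hx] with z hz
  rw [evAt_of_mem hz, ext0_of_mem (U := (Opens.map (An.anToScheme X).base).obj W) _ hz]
  rfl

end Groth.Agent.Gaga.H990.Stalk
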