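import Groth.Agent.Gaga.H990.EtInv
import Groth.Agent.Gaga.H990.Stalk

/-!
# Étale morphisms induce isomorphisms on the stalks of holomorphic functions
-/

set_option autoImplicit false
open CategoryTheory AlgebraicGeometry Topology TopologicalSpace Opposite Filter
open Groth.Agent.Gaga.H990.ChartAt Groth.Agent.Gaga.H990.Stalk

noncomputable section

namespace Groth.Agent.Gaga.H990.EtStalk

variable {X Y : Scheme.{0}} [X.Over An.SC] [Y.Over An.SC]

/-- For `g` étale, the map induced on the stalks of the sheaves of holomorphic functions is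
bijective. -/
theorem bijective_stalkMap (g : X ⟶ Y) [g.IsOver An.SC] [Etale g] (x : An.Pts X) :
    Function.Bijective (PresheafedSpace.Hom.stalkMap (An.anMap g) x).hom := by
  constructor
  · intro a b hab
    obtain ⟨φ, hφ, ha⟩ := exists_chartAt_of_stk a
    obtain ⟨ψ, hψ, hb⟩ := exists_chartAt_of_stk b
    apply toGerm_injective
    rw [ha, hb]
    have h1 := toGerm_stalkMap g x a φ ha
    have h2 := toGerm_stalkMap g x b ψ hb
    rw [show (PresheafedSpace.Hom.stalkMap (An.anMap g) x).hom a =
      (PresheafedSpace.Hom.stalkMap (An.anMap g) x).hom b from hab, h2] at h1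
    have h3 := Germ.coe_eq.1 h1
    refine Germ.coe_eq.2 ?_
    have h4 := (Groth.Agent.An.H866.EtLH.isOpenMap_map g).nhds_le x
    refine h4 (Filter.mem_map.2 ?_)
    filter_upwards [h3] with z hz
    exact hz.symm
  · intro b
    obtain ⟨φ, hφ, hb⟩ := exists_chartAt_of_stk b
    obtain ⟨ψ, hψ, h⟩ := EtInv.exists_chartAt g hφ
    obtain ⟨a, ha⟩ := exists_stk_of_chartAt hψ
    refine ⟨a, toGerm_injective x ?_⟩
    have h1 := toGerm_stalkMap g x a ψ ha
    refine h1.trans ?_
    rw [hb]
    exact Germ.coe_eq.2 (h.mono fun z hz => hz.symm)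

end Groth.Agent.Gaga.H990.EtStalk
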