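import Groth.Agent.Gaga.H990.EtStalk
import Groth.Agent.An.H871.Surj
import Mathlib.AlgebraicGeometry.Morphisms.Flat
import Mathlib.RingTheory.RingHom.Flat

/-!
# S4324 from the statements S4322 (flat) and S4323 (unramified)
-/

set_option autoImplicit false
open CategoryTheory AlgebraicGeometry Topology TopologicalSpace Opposite Filter

noncomputable section

namespace Groth.Agent.Gaga.H990.S4324Of

variable {X Y : Scheme.{0}} [X.Over An.SC] [Y.Over An.SC] [LocallyOfFiniteType (X ↘ An.SC)]
    [LocallyOfFiniteType (Y ↘ An.SC)]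

theorem etale_iff_of (f : X ⟶ Y) [f.IsOver An.SC]
    (hflat : (∀ x : An.Pts X, (PresheafedSpace.Hom.stalkMap (An.anMap f) x).hom.Flat) → Flat f)
    (hunr : (∀ (x : An.Pts X) (m : Ideal ((An.anSpace X).presheaf.stalk x)), m.IsMaximal →
      ∃ m' : Ideal ((An.anSpace Y).presheaf.stalk (An.Pts.map f x)), m'.IsMaximal ∧
        m'.map (PresheafedSpace.Hom.stalkMap (An.anMap f) x).hom = m) → FormallyUnramified f) :
    Etale f ↔ ∀ x : An.Pts X,
      Function.Bijective (PresheafedSpace.Hom.stalkMap (An.anMap f) x).hom := by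
  constructor
  · intro _ x
    exact EtStalk.bijective_stalkMap f x
  · intro h
    have h1 : Flat f := hflat fun x => RingHom.Flat.of_bijective (h x)
    have h2 : FormallyUnramified f := by
      refine hunr fun x m hm => ?_
      have hb := h x
      refine ⟨m.comap (PresheafedSpace.Hom.stalkMap (An.anMap f) x).hom, ?_, ?_⟩
      · exact Ideal.comap_isMaximal_of_surjective _ hb.2
      · exact Ideal.map_comap_of_surjective _ hb.2 m
    have h3 : LocallyOfFinitePresentation f :=
      Groth.Agent.An.H871.Surj.locallyOfFinitePresentation f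
    exact Etale.iff_flat_and_formallyUnramified.2 ⟨h1, h2, h3⟩

end Groth.Agent.Gaga.H990.S4324Of
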